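import Cfsg.Agent.Lib.Helper35.Fi22Ord.X1.Chk1

namespace Cfsg.Agent.Lib.Helper35.Fi22Ord.X1

open Cfsg.Agent.Lib.Helper35

noncomputable def reach0 : ReachData Fi22b.pt 14079 [[0], [1], [2], [3], [4], [5], [6], [7], [8]] 0 14080 where
  sl := sl0
  hsl := rfl
  ot := ot0
  big := 48
  hchk := q0u6
  hcnt := m0n0
theorem fix0 : ∀ s ∈ ([[1], [2], [3], [4], [5], [6], [7], [8]] : List (List Nat)), pwalk Fi22b.pt s 0 = 0 := by decide +kernel
theorem yfix0 : ∀ i, i < 14080 → pwalk Fi22b.pt yl0.W i = i := fun i hi => fix_of_leaves' [yl0] 14080 y0u37 yl0.W (by simp) i hi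
theorem yfix1 : ∀ i, i < 14080 → pwalk Fi22b.pt yl1.W i = i := fun i hi => fix_of_leaves' [yl1] 14080 y1u117 yl1.W (by simp) i hi
noncomputable def orbData : OrbData Fi22b.permData where
  sl := Fi22b.sl
  hsl := rfl
  ot := ot
  db := 6
  rep := rep
  hchk := allBelow_of_forall _ _ ou17
theorem ocnt0 : countBelow (fun j => Nat.beq (orbData.lab j) 0) 14080 = 1 := l0n0
theorem ocnt1 : countBelow (fun j => Nat.beq (orbData.lab j) 1) 14080 = 3159 := l1n0
theorem ocnt2 : countBelow (fun j => Nat.beq (orbData.lab j) 2) 14080 = 10920 := l2n0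

end Cfsg.Agent.Lib.Helper35.Fi22Ord.X1
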